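import Cfsg.Agent.Screen.ThreeThree.Graph
import Cfsg.Agent.S0249

/-!
A group with the commuting relation of the projective special linear group of degree three over
three elements is isomorphic to it.
-/

set_option autoImplicit false
set_option linter.unusedSectionVars false
set_option linter.style.haveILetI false

namespace Cfsg.Agent.Screen.ThreeThree

theorem center_SL33 : Subgroup.center SL33 = ⊥ :=
  Subgroup.eq_bot_of_card_eq _ ((Cfsg.Agent.Linear.card_center_SL 3).trans (by rw [ZMod.card]; rfl))

/-- The projection onto the projective group is an isomorphism. -/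
noncomputable def toPSL : SL33 ≃* Matrix.ProjectiveSpecialLinearGroup (Fin 3) (ZMod 3) :=
  MulEquiv.ofBijective (QuotientGroup.mk' _) ⟨by
    rw [injective_iff_map_eq_one]
    intro x hx
    have := (QuotientGroup.eq_one_iff x).1 hx
    rwa [center_SL33, Subgroup.mem_bot] at this, QuotientGroup.mk'_surjective _⟩

theorem simple_SL33 : IsSimpleGroup SL33 :=
  haveI : IsSimpleGroup (Matrix.ProjectiveSpecialLinearGroup (Fin 3) (ZMod 3)) :=
    Cfsg.Agent.S0249.result 3 le_rfl
  toPSL.isSimpleGroup

/-- The recognition from the commuting relation. -/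
theorem iso_of_commuting {H : Type*} [Group H] [Finite H] (F : H ≃ SL33) (hF1 : F 1 = 1)
    (hF : ∀ x y : H, x * y = y * x ↔ F x * F y = F y * F x) : Nonempty (H ≃* SL33) := by
  haveI := simple_SL33
  set ρ := flagHom F hF1 hF
  set τ := flagHom (Equiv.refl SL33) rfl (fun _ _ => Iff.rfl)
  have hρi := flagHom_injective F hF1 hF
  have hτi := flagHom_injective (Equiv.refl SL33) rfl (fun _ _ => Iff.rfl)
  set I := ρ.range with hI
  set J := τ.range with hJ
  have hIc : Nat.card I = 5616 := by
    rw [← Nat.card_congr (MonoidHom.ofInjective hρi).toEquiv, Nat.card_congr F, card_SL33]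
  have hJc : Nat.card J = 5616 := by
    rw [← Nat.card_congr (MonoidHom.ofInjective hτi).toEquiv, card_SL33]
  have hA := card_flagAut_le
  have hidx : I.index ≤ 2 := by
    have h := I.card_mul_index
    rw [hIc] at h
    omega
  have hpos : 0 < I.index := Nat.pos_of_ne_zero Subgroup.index_ne_zero_of_finite
  have hIn : I.Normal := by
    interval_cases h : I.index
    · rw [Subgroup.index_eq_one.1 h]; infer_instance
    · exact Subgroup.normal_of_index_eq_two h
  have hJI : J ≤ I := by
    haveI : (I.comap τ).Normal := hIn.comap τ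
    rcases IsSimpleGroup.eq_bot_or_eq_top_of_normal (I.comap τ) inferInstance with h | h
    · exfalso
      have hinj : Function.Injective (fun g : SL33 => ((τ g : flagAut) : flagAut ⧸ I)) := by
        intro a b e
        have hm : (τ a)⁻¹ * τ b ∈ I := QuotientGroup.eq.1 e
        have : a⁻¹ * b ∈ I.comap τ := by
          rw [Subgroup.mem_comap, map_mul, map_inv]; exact hm
        rw [h, Subgroup.mem_bot] at this
        exact inv_mul_eq_one.1 this
      have := Nat.card_le_card_of_injective _ hinj
      rw [card_SL33, ← Subgroup.index_eq_card] at this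
      omega
    · rintro _ ⟨g, rfl⟩
      exact (h.ge (Subgroup.mem_top g) : g ∈ I.comap τ)
  have hIJ : J = I := Subgroup.eq_of_le_of_card_ge hJI (by rw [hIc, hJc])
  exact ⟨((MonoidHom.ofInjective hρi).trans (MulEquiv.subgroupCongr hIJ.symm)).trans
    (MonoidHom.ofInjective hτi).symm⟩

/-- The recognition of the projective group. -/
theorem iso_psl_of_commuting {H : Type*} [Group H] [Finite H]
    (f : {h : H // h ≠ 1} ≃ {g : Matrix.ProjectiveSpecialLinearGroup (Fin 3) (ZMod 3) // g ≠ 1})
    (hf : ∀ x y : {h : H // h ≠ 1}, (x : H) * y = y * x ↔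
      ((f x) : Matrix.ProjectiveSpecialLinearGroup (Fin 3) (ZMod 3)) * (f y) = (f y) * (f x)) :
    Nonempty (H ≃* Matrix.ProjectiveSpecialLinearGroup (Fin 3) (ZMod 3)) := by
  classical
  let F : H ≃ Matrix.ProjectiveSpecialLinearGroup (Fin 3) (ZMod 3) :=
    (Equiv.optionSubtypeNe (1 : H)).symm.trans ((Equiv.optionCongr f).trans (Equiv.optionSubtypeNe 1))
  have hF1 : F 1 = 1 := by simp [F]
  have hFx : ∀ (x : H) (hx : x ≠ 1), F x = f ⟨x, hx⟩ := by intro x hx; simp [F, hx]
  have hcomm : ∀ x y : H, x * y = y * x ↔ F x * F y = F y * F x := by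
    intro x y
    by_cases hx : x = 1
    · simp [hx, hF1]
    by_cases hy : y = 1
    · simp [hy, hF1]
    rw [hFx x hx, hFx y hy]
    exact hf ⟨x, hx⟩ ⟨y, hy⟩
  obtain ⟨e⟩ := iso_of_commuting (F.trans toPSL.symm.toEquiv) (by simp [hF1]) fun x y => by
    rw [hcomm x y]
    simp only [Equiv.trans_apply, MulEquiv.toEquiv_eq_coe, MulEquiv.coe_toEquiv, ← map_mul,
      EmbeddingLike.apply_eq_iff_eq]
  exact ⟨e.trans toPSL⟩

end Cfsg.Agent.Screen.ThreeThree
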