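import Cfsg.Agent.Screen.ThreeThree.Root
import Mathlib.GroupTheory.Perm.Basic
import Mathlib.GroupTheory.GroupAction.Quotient

/-!
A group with the commuting relation of the special linear group of degree three over three elements
acts faithfully on the flags, preserving distance; there are at most `11232` such permutations.
-/

set_option autoImplicit false
set_option linter.unusedSectionVars false
set_option linter.style.haveILetI false

namespace Cfsg.Agent.Screen.ThreeThree

/-- The permutations of the flags preserving the distance. -/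
def flagAut : Subgroup (Equiv.Perm (Fin 52)) where
  carrier := {σ | ∀ k l, dist (σ k) (σ l) = dist k l}
  one_mem' := by simp
  mul_mem' {a b} ha hb := fun k l => (ha (b k) (b l)).trans (hb k l)
  inv_mem' {a} ha := fun k l => by
    have h := ha (a⁻¹ k) (a⁻¹ l)
    simpa using h.symm

/-- The permutations in `flagAut` fixing the given flags. -/
def flagFix (pre : List (Fin 52)) : Subgroup (Equiv.Perm (Fin 52)) where
  carrier := {σ | σ ∈ flagAut ∧ ∀ p ∈ pre, σ p = p}
  one_mem' := ⟨flagAut.one_mem, fun _ _ => rfl⟩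
  mul_mem' {a b} ha hb := ⟨flagAut.mul_mem ha.1 hb.1, fun p hp => by
    rw [Equiv.Perm.mul_apply, hb.2 p hp, ha.2 p hp]⟩
  inv_mem' {a} ha := ⟨flagAut.inv_mem ha.1, fun p hp => by
    rw [Equiv.Perm.inv_eq_iff_eq]; exact (ha.2 p hp).symm⟩

theorem card_fix_le_step (pre : List (Fin 52)) (v : Fin 52) :
    Nat.card (flagFix pre) ≤ (cands pre v).length * Nat.card (flagFix (pre ++ [v])) := by
  set K := flagFix pre with hK
  set S := MulAction.stabilizer K v with hS
  have h1 : Nat.card K = Nat.card (MulAction.orbit K v) * Nat.card S := by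
    rw [← Nat.card_congr (MulAction.orbitProdStabilizerEquivGroup K v), Nat.card_prod]
  rw [h1]
  refine Nat.mul_le_mul ?_ ?_
  · have hsub : ∀ y ∈ MulAction.orbit K v, y ∈ cands pre v := by
      rintro _ ⟨σ, rfl⟩
      show (σ : Equiv.Perm (Fin 52)) v ∈ _
      simp only [cands, List.mem_filter, List.mem_finRange, true_and, List.all_eq_true, beq_iff_eq]
      intro p hp
      have h := σ.2.1 v p
      rwa [σ.2.2 p hp] at h
    classical
    refine le_trans (Nat.card_le_card_of_injective
      (fun y : MulAction.orbit K v => (⟨y.1, List.mem_toFinset.2 (hsub y.1 y.2)⟩ : (cands pre v).toFinset)) ?_) ?_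
    · intro a b h
      exact Subtype.ext (congrArg (fun z : (cands pre v).toFinset => (z : Fin 52)) h)
    · rw [Nat.card_eq_finsetCard]
      exact List.toFinset_card_le _
  · refine Nat.card_le_card_of_injective
      (fun σ : S => (⟨((σ : K) : Equiv.Perm (Fin 52)), (σ : K).2.1, fun p hp => ?_⟩ : flagFix (pre ++ [v]))) ?_
    · rcases List.mem_append.1 hp with h | h
      · exact (σ : K).2.2 p h
      · rw [List.mem_singleton.1 h]; exact σ.2
    · intro a b h
      exact Subtype.ext (Subtype.ext (congrArg (fun z : flagFix (pre ++ [v]) => (z : Equiv.Perm (Fin 52))) h))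

theorem card_fix_le : ∀ (l pre : List (Fin 52)), (∀ k, k ∈ pre ++ l) →
    Nat.card (flagFix pre) ≤ bound pre l := by
  intro l
  induction l with
  | nil =>
    intro pre h
    rw [bound]
    have : flagFix pre = ⊥ := by
      rw [eq_bot_iff]
      intro σ hσ
      exact Equiv.ext fun k => hσ.2 k (by simpa using h k)
    rw [this, Subgroup.card_bot]
  | cons v l ih =>
    intro pre h
    rw [bound]
    refine (card_fix_le_step pre v).trans (Nat.mul_le_mul_left _ (ih _ fun k => ?_))
    simpa using h k

theorem card_flagAut_le : Nat.card flagAut ≤ 11232 := by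
  have h : flagFix [] = flagAut := by
    ext σ
    exact ⟨fun h => h.1, fun h => ⟨h, fun p hp => by simp at hp⟩⟩
  rw [← h, ← bound_base.1]
  exact card_fix_le _ _ fun k => by simpa using bound_base.2 k

variable {H : Type*} [Group H] [Finite H] (F : H ≃ SL33) (hF1 : F 1 = 1)
  (hF : ∀ x y : H, x * y = y * x ↔ F x * F y = F y * F x)

/-- The element corresponding to a root element. -/
def rootH (x : Idx) : H := F.symm (root x)

theorem rootH_inj : Function.Injective (rootH F) := fun _ _ h => root_inj (F.symm.injective h)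

include hF in
theorem rootH_comm (x y : Idx) : rootH F x * rootH F y = rootH F y * rootH F x ↔ near x.1 y.1 := by
  rw [hF, rootH, rootH, Equiv.apply_symm_apply, Equiv.apply_symm_apply, root_commute]

include hF1 hF in
theorem rootH_iff (h : H) :
    (h ≠ 1 ∧ 27 ∣ Nat.card (Subgroup.centralizer ({h} : Set H))) ↔ ∃ x, rootH F x = h := by
  have e : Nat.card (Subgroup.centralizer ({h} : Set H)) = Nat.card (Subgroup.centralizer ({F h} : Set SL33)) :=
    Nat.card_congr (Equiv.subtypeEquiv F fun y => by
      rw [Subgroup.mem_centralizer_singleton_iff, Subgroup.mem_centralizer_singleton_iff]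
      exact hF y h)
  rw [e, show (h ≠ 1) = (F h ≠ 1) by rw [← hF1]; exact propext F.injective.ne_iff.symm, root_iff]
  simp only [rootH, Equiv.symm_apply_eq]

include hF in
/-- The commuting relation separates flags. -/
theorem flag_eq {x y : Idx} (h : ∀ g : H, g * rootH F x = rootH F x * g → g * rootH F y = rootH F y * g) :
    x.1 = y.1 := by
  refine near_separates _ _ fun z hz => ?_
  have h1 := h (rootH F (z, 0)) (((rootH_comm F hF x (z, 0)).2 hz).symm)
  exact (rootH_comm F hF y (z, 0)).1 h1.symm

include hF in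
theorem rootH_same_comm (x : Idx) (g : H) :
    g * rootH F x = rootH F x * g ↔ g * rootH F (x.1, x.2 + 1) = rootH F (x.1, x.2 + 1) * g := by
  rw [hF, hF g, rootH, rootH, Equiv.apply_symm_apply, Equiv.apply_symm_apply, ← root_inv]
  exact ⟨fun h => (Commute.inv_right h).eq, fun h => by simpa using (Commute.inv_right h).eq⟩

omit [Finite H] in
theorem idx_cases (x y : Idx) (h : x.1 = y.1) : y = x ∨ y = (x.1, x.2 + 1) := by
  obtain ⟨k, e⟩ := x
  obtain ⟨l, f⟩ := y
  simp only at h
  subst h
  have key : ∀ e f : Fin 2, f = e ∨ f = e + 1 := by decide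
  rcases key e f with rfl | rfl
  · exact Or.inl rfl
  · exact Or.inr rfl

include hF1 hF in
theorem rootH_ne_one (x : Idx) : rootH F x ≠ 1 := fun h => root_ne_one x (by
  rw [← hF1, ← h, rootH, Equiv.apply_symm_apply])

include hF1 hF in
/-- A nontrivial element commuting with all that commutes with a root lies in its pair. -/
theorem mem_pair (x : Idx) {p : H} (hp : p ≠ 1)
    (h : ∀ g : H, g * rootH F x = rootH F x * g → g * p = p * g) :
    p = rootH F x ∨ p = rootH F (x.1, x.2 + 1) := by
  have h27 : 27 ∣ Nat.card (Subgroup.centralizer ({p} : Set H)) := by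
    refine dvd_trans ((rootH_iff F hF1 hF _).2 ⟨x, rfl⟩).2 (Subgroup.card_dvd_of_le fun g hg => ?_)
    rw [Subgroup.mem_centralizer_singleton_iff] at hg ⊢
    exact h g hg
  obtain ⟨y, rfl⟩ := (rootH_iff F hF1 hF p).1 ⟨hp, h27⟩
  rcases idx_cases x y (flag_eq F hF h) with rfl | rfl
  · exact Or.inl rfl
  · exact Or.inr rfl

include hF1 hF in
/-- Roots have order three and pairs are inverse. -/
theorem rootH_pair (x : Idx) :
    rootH F x * rootH F x * rootH F x = 1 ∧ (rootH F x)⁻¹ = rootH F (x.1, x.2 + 1) := by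
  have step : ∀ x : Idx, rootH F x * rootH F x = 1 ∨ rootH F x * rootH F x = rootH F (x.1, x.2 + 1) := by
    intro x
    by_cases h : rootH F x * rootH F x = 1
    · exact Or.inl h
    rcases mem_pair F hF1 hF x h (fun g hg => by
      rw [← mul_assoc, hg, mul_assoc, hg, ← mul_assoc]) with e | e
    · exact absurd (mul_eq_left.1 e) (rootH_ne_one F hF1 hF x)
    · exact Or.inr e
  have good : ∀ x : Idx, rootH F x * rootH F x = rootH F (x.1, x.2 + 1) →
      rootH F x * rootH F x * rootH F x = 1 ∧ (rootH F x)⁻¹ = rootH F (x.1, x.2 + 1) := by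
    intro x h
    set a := rootH F x with ha
    have h3 : a * a * a = 1 := by
      by_contra hne
      rcases mem_pair F hF1 hF x hne (fun g hg => by
        rw [← ha] at hg
        exact (((show Commute g a from hg).mul_right hg).mul_right hg).eq) with e | e
      · have h2 : a * a = 1 := mul_eq_right.1 e
        rw [h2] at h
        exact rootH_ne_one F hF1 hF _ h.symm
      · rw [← h] at e
        exact rootH_ne_one F hF1 hF x (mul_eq_left.1 e)
    exact ⟨h3, (inv_eq_of_mul_eq_one_left h3).trans h⟩
  rcases step x with h | h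
  swap
  · exact good x h
  -- an involution is impossible
  exfalso
  set y : Idx := (x.1, x.2 + 1) with hy
  have hyy : (y.1, y.2 + 1) = x := by
    have key : ∀ e : Fin 2, e + 1 + 1 = e := by decide
    simp [hy, key]
  rcases step y with h' | h'
  · have hne : rootH F x ≠ rootH F y := fun e => by
      have := congrArg Prod.snd (rootH_inj F e)
      have key : ∀ e : Fin 2, e ≠ e + 1 := by decide
      exact key _ this
    have hp : rootH F x * rootH F y ≠ 1 := fun e => hne
      ((eq_inv_of_mul_eq_one_left e).trans (inv_eq_of_mul_eq_one_right h'))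
    rcases mem_pair F hF1 hF x hp (fun g hg => by
      have hg' := (rootH_same_comm F hF x g).1 hg
      rw [← mul_assoc, hg, mul_assoc, hg', ← mul_assoc]) with e | e
    · exact rootH_ne_one F hF1 hF y (mul_eq_left.1 e)
    · exact rootH_ne_one F hF1 hF x (mul_eq_right.1 e)
  · obtain ⟨h3, hinv⟩ := good y h'
    rw [hyy] at hinv
    have : rootH F y = 1 := by
      have h2 : (rootH F y)⁻¹ * (rootH F y)⁻¹ = 1 := by rw [hinv]; exact h
      have h2' : rootH F y * rootH F y = 1 := by
        rw [← mul_inv_rev] at h2; exact inv_eq_one.1 h2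
      rw [h2', one_mul] at h3
      exact h3
    exact rootH_ne_one F hF1 hF y this

include hF1 hF in
theorem exists_conj (c : H) (x : Idx) : ∃ y, rootH F y = c * rootH F x * c⁻¹ := by
  obtain ⟨h1, h2⟩ := (rootH_iff F hF1 hF _).2 ⟨x, rfl⟩
  refine (rootH_iff F hF1 hF _).1 ⟨fun e => h1 (conj_eq_one_iff.1 e), ?_⟩
  refine dvd_trans h2 (dvd_of_eq (Nat.card_congr ((MulAut.conj c).toEquiv.subtypeEquiv fun g => ?_)))
  simp only [Subgroup.mem_centralizer_singleton_iff, MulEquiv.toEquiv_eq_coe, MulEquiv.coe_toEquiv,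
    MulAut.conj_apply]
  constructor
  · intro h
    calc c * g * c⁻¹ * (c * rootH F x * c⁻¹) = c * (g * rootH F x) * c⁻¹ := by group
      _ = c * (rootH F x * g) * c⁻¹ := by rw [h]
      _ = c * rootH F x * c⁻¹ * (c * g * c⁻¹) := by group
  · intro h
    calc g * rootH F x = c⁻¹ * (c * g * c⁻¹ * (c * rootH F x * c⁻¹)) * c := by group
      _ = c⁻¹ * (c * rootH F x * c⁻¹ * (c * g * c⁻¹)) * c := by rw [h]
      _ = rootH F x * g := by group

/-- The image of a flag. -/
noncomputable def flagMap (c : H) (k : Fin 52) : Fin 52 :=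
  (exists_conj F hF1 hF c (k, 0)).choose.1

theorem flagMap_eq {c : H} {x y : Idx} (h : rootH F y = c * rootH F x * c⁻¹) :
    flagMap F hF1 hF c x.1 = y.1 := by
  have hs := (exists_conj F hF1 hF c (x.1, 0)).choose_spec
  show (exists_conj F hF1 hF c (x.1, 0)).choose.1 = y.1
  set z := (exists_conj F hF1 hF c (x.1, 0)).choose
  rcases idx_cases x (x.1, (0 : Fin 2)) rfl with e | e
  · rw [e, ← h] at hs
    exact congrArg Prod.fst (rootH_inj F hs)
  · rw [e, ← (rootH_pair F hF1 hF x).2, ← conj_inv, ← h, (rootH_pair F hF1 hF y).2] at hs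
    rw [rootH_inj F hs]

/-- The action on flags. -/
noncomputable def flagHom : H →* flagAut :=
  MonoidHom.mk' (fun c => ⟨Equiv.ofBijective (flagMap F hF1 hF c) (by
      refine (Finite.injective_iff_bijective).1 fun k l hkl => ?_
      obtain ⟨y, hy⟩ := exists_conj F hF1 hF c (k, 0)
      obtain ⟨z, hz⟩ := exists_conj F hF1 hF c (l, 0)
      rw [flagMap_eq F hF1 hF hy, flagMap_eq F hF1 hF hz] at hkl
      rcases idx_cases y z hkl with e | e
      · rw [e, hy] at hz
        exact congrArg Prod.fst (rootH_inj F (mul_left_cancel (mul_right_cancel hz)))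
      · rw [e, ← (rootH_pair F hF1 hF y).2, hy, conj_inv, (rootH_pair F hF1 hF _).2] at hz
        exact congrArg Prod.fst (rootH_inj F (mul_left_cancel (mul_right_cancel hz)))), by
      -- distances are preserved
      intro k l
      show dist (flagMap F hF1 hF c k) (flagMap F hF1 hF c l) = dist k l
      have hnear : ∀ k l, near (flagMap F hF1 hF c k) (flagMap F hF1 hF c l) ↔ near k l := by
        intro k l
        obtain ⟨y, hy⟩ := exists_conj F hF1 hF c (k, 0)
        obtain ⟨z, hz⟩ := exists_conj F hF1 hF c (l, 0)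
        rw [flagMap_eq F hF1 hF hy, flagMap_eq F hF1 hF hz, ← rootH_comm F hF y z,
          ← rootH_comm F hF (k, 0) (l, 0), hy, hz]
        constructor
        · intro h
          calc rootH F (k, 0) * rootH F (l, 0)
              = c⁻¹ * (c * rootH F (k, 0) * c⁻¹ * (c * rootH F (l, 0) * c⁻¹)) * c := by group
            _ = c⁻¹ * (c * rootH F (l, 0) * c⁻¹ * (c * rootH F (k, 0) * c⁻¹)) * c := by rw [h]
            _ = rootH F (l, 0) * rootH F (k, 0) := by group
        · intro h
          calc c * rootH F (k, 0) * c⁻¹ * (c * rootH F (l, 0) * c⁻¹)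
              = c * (rootH F (k, 0) * rootH F (l, 0)) * c⁻¹ := by group
            _ = c * (rootH F (l, 0) * rootH F (k, 0)) * c⁻¹ := by rw [h]
            _ = _ := by group
      have hbij : Function.Bijective (flagMap F hF1 hF c) := by
        refine (Finite.surjective_iff_bijective).1 fun m => ?_
        obtain ⟨y, hy⟩ := exists_conj F hF1 hF c⁻¹ (m, 0)
        refine ⟨y.1, ?_⟩
        rw [flagMap_eq F hF1 hF (y := (m, 0)) (x := y) (by rw [hy]; group)]
      set f := flagMap F hF1 hF c
      obtain ⟨s0, s1, s2, s3⟩ := dist_spec (f k) (f l)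
      obtain ⟨t0, t1, t2, t3⟩ := dist_spec k l
      have e0 : dist (f k) (f l) = 0 ↔ dist k l = 0 := by rw [s0, t0, hbij.1.eq_iff]
      have e1 : dist (f k) (f l) ≤ 1 ↔ dist k l ≤ 1 := by rw [s1, t1, hnear]
      have e2 : dist (f k) (f l) ≤ 2 ↔ dist k l ≤ 2 := by
        rw [s2, t2]
        constructor
        · rintro ⟨z, h1, h2⟩
          obtain ⟨z', rfl⟩ := hbij.2 z
          exact ⟨z', (hnear _ _).1 h1, (hnear _ _).1 h2⟩
        · rintro ⟨z, h1, h2⟩
          exact ⟨f z, (hnear _ _).2 h1, (hnear _ _).2 h2⟩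
      omega⟩)
    (fun c d => Subtype.ext (Equiv.ext fun k => by
      show flagMap F hF1 hF (c * d) k = flagMap F hF1 hF c (flagMap F hF1 hF d k)
      obtain ⟨y, hy⟩ := exists_conj F hF1 hF d (k, 0)
      obtain ⟨z, hz⟩ := exists_conj F hF1 hF c y
      rw [flagMap_eq F hF1 hF hy, flagMap_eq F hF1 hF hz,
        flagMap_eq F hF1 hF (c := c * d) (x := (k, 0)) (y := z) (by rw [hz, hy]; group)]))

theorem flagHom_injective : Function.Injective (flagHom F hF1 hF) := by
  rw [injective_iff_map_eq_one]
  intro h hh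
  have hk : ∀ x, h * rootH F x * h⁻¹ = rootH F x ∨ h * rootH F x * h⁻¹ = (rootH F x)⁻¹ := by
    intro x
    obtain ⟨y, hy⟩ := exists_conj F hF1 hF h x
    have e1 : flagMap F hF1 hF h x.1 = x.1 := by
      have := congrArg (fun σ : flagAut => (σ : Equiv.Perm (Fin 52)) x.1) hh
      exact this
    rw [flagMap_eq F hF1 hF hy] at e1
    rcases idx_cases x y e1.symm with rfl | rfl
    · exact Or.inl hy.symm
    · exact Or.inr (by rw [← hy, (rootH_pair F hF1 hF x).2])
  have hcube := fun x => (rootH_pair F hF1 hF x).1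
  -- from `a * a` to `a`
  have hsq : ∀ (x : Idx) (b : H), b * (rootH F x * rootH F x) = rootH F x * rootH F x * b →
      b * rootH F x = rootH F x * b := by
    intro x b hb
    have h2 : Commute b (rootH F x * rootH F x) := hb
    have := h2.mul_right h2
    have e : rootH F x * rootH F x * (rootH F x * rootH F x) = rootH F x := by
      rw [← mul_assoc, hcube, one_mul]
    rwa [e] at this
  have hmix : ∀ x y : Idx, ¬ near x.1 y.1 → h * rootH F x * h⁻¹ = (rootH F x)⁻¹ →
      h * rootH F y * h⁻¹ = (rootH F y)⁻¹ := by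
    intro x y hn hx
    refine (hk y).resolve_left fun hy => hn ?_
    obtain ⟨z, hz⟩ := exists_conj F hF1 hF (rootH F x) y
    set a := rootH F x
    set b := rootH F y
    have hc : h * rootH F z * h⁻¹ = a⁻¹ * b * a := by
      rw [hz]
      calc h * (a * b * a⁻¹) * h⁻¹ = (h * a * h⁻¹) * (h * b * h⁻¹) * (h * a * h⁻¹)⁻¹ := by group
        _ = _ := by rw [hx, hy]; group
    have haa : b * (a * a) = a * a * b := by
      rcases hk z with e | e <;> rw [hc, hz] at e
      · calc b * (a * a) = a * (a⁻¹ * b * a) * a := by group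
          _ = a * (a * b * a⁻¹) * a := by rw [e]
          _ = a * a * b := by group
      · have e' : b⁻¹ = a * b * a⁻¹ := by
          have hinv : a⁻¹ = a * a := inv_eq_of_mul_eq_one_left (hcube x)
          calc b⁻¹ = a⁻¹ * (a * b * a⁻¹)⁻¹ * a := by group
            _ = a⁻¹ * (a⁻¹ * b * a) * a := by rw [e]
            _ = (a⁻¹ * a⁻¹) * b * (a⁻¹ * a⁻¹)⁻¹ := by simp only [mul_assoc, mul_inv_rev, inv_inv]
            _ = a * b * a⁻¹ := by
              rw [show a⁻¹ * a⁻¹ = a by rw [← mul_inv_rev, ← hinv, inv_inv]]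
        calc b * (a * a) = (a * b * a⁻¹)⁻¹ * (a * a) := by rw [← e', inv_inv]
          _ = a * b⁻¹ * a := by group
          _ = a * (a * b * a⁻¹) * a := by rw [e']
          _ = a * a * b := by group
    have := hsq x b haa
    exact (rootH_comm F hF x y).1 this.symm
  have hall : ∀ x, h * rootH F x * h⁻¹ = rootH F x := by
    intro x
    refine (hk x).resolve_right fun hx => ?_
    have hinvall : ∀ y : Idx, h * rootH F y * h⁻¹ = (rootH F y)⁻¹ := by
      intro y
      obtain ⟨z, w, h1, h2, h3⟩ := far_connected x.1 y.1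
      exact hmix (w, 0) y h3 (hmix (z, 0) (w, 0) h2 (hmix x (z, 0) h1 hx))
    obtain ⟨z, w, h1, -, -⟩ := far_connected x.1 x.1
    obtain ⟨u, hu⟩ := exists_conj F hF1 hF (rootH F x) (z, 0)
    have e := hinvall u
    rw [hu] at e
    set a := rootH F x
    set b := rootH F (z, 0)
    have e2 : h * (a * b * a⁻¹) * h⁻¹ = a⁻¹ * b⁻¹ * a := by
      calc h * (a * b * a⁻¹) * h⁻¹ = (h * a * h⁻¹) * (h * b * h⁻¹) * (h * a * h⁻¹)⁻¹ := by group
        _ = _ := by rw [hx, show h * b * h⁻¹ = b⁻¹ from hinvall (z, 0)]; group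
    rw [e2] at e
    have e3 : a⁻¹ * b * a = a * b * a⁻¹ := by
      calc a⁻¹ * b * a = (a⁻¹ * b⁻¹ * a)⁻¹ := by group
        _ = ((a * b * a⁻¹)⁻¹)⁻¹ := by rw [e]
        _ = a * b * a⁻¹ := by group
    have haa : b * (a * a) = a * a * b := by
      calc b * (a * a) = a * (a⁻¹ * b * a) * a := by group
        _ = a * (a * b * a⁻¹) * a := by rw [e3]
        _ = a * a * b := by group
    exact h1 ((rootH_comm F hF x (z, 0)).1 (hsq x b haa).symm)
  apply F.injective
  rw [hF1]
  refine eq_one_of_comm_roots fun x => ?_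
  have h1 : h * rootH F x = rootH F x * h := mul_inv_eq_iff_eq_mul.1 (hall x)
  have h2 := (hF h (rootH F x)).1 h1
  rwa [rootH, Equiv.apply_symm_apply] at h2

end Cfsg.Agent.Screen.ThreeThree
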