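import Cfsg.Agent.Screen.ThreeThree.Plane
import Cfsg.Agent.Linear.Card
import Mathlib.GroupTheory.Sylow

/-!
The root elements of the special linear group of degree three over three elements are the
nonidentity elements whose centraliser order is divisible by twenty-seven.
-/

set_option autoImplicit false
set_option linter.unusedSectionVars false
set_option linter.style.haveILetI false

namespace Cfsg.Agent.Screen.ThreeThree

open Matrix

instance : Fact (Nat.Prime 3) := ⟨Nat.prime_three⟩

/-- The special linear group. -/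
abbrev SL33 : Type := Matrix.SpecialLinearGroup (Fin 3) (ZMod 3)

/-- The root element. -/
def root (x : Idx) : SL33 := ⟨rootMat x, by rw [det_eq]; exact (root_det x).1⟩

theorem root_inj : Function.Injective root := fun x y h => root_injective x y (congrArg Subtype.val h)

theorem root_ne_one (x : Idx) : root x ≠ 1 := fun h => (root_det x).2 (congrArg Subtype.val h)

theorem root_commute (x y : Idx) : root x * root y = root y * root x ↔ near x.1 y.1 :=
  ⟨fun h => (root_comm x y).1 (congrArg Subtype.val h), fun h => Subtype.ext ((root_comm x y).2 h)⟩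

theorem root_inv (x : Idx) : (root x)⁻¹ = root (x.1, x.2 + 1) :=
  inv_eq_of_mul_eq_one_right (Subtype.ext (root_pair x))

/-- Nontrivial matrices with square-zero difference from the identity are root elements. -/
theorem exists_root {g : SL33} (hg : g ≠ 1)
    (h : ((g : Mat) - 1) * ((g : Mat) - 1) = 0) : ∃ x, root x = g := by
  set N : Mat := (g : Mat) - 1 with hN
  have hgN : (g : Mat) = !![N 0 0 + 1, N 0 1, N 0 2; N 1 0, N 1 1 + 1, N 1 2; N 2 0, N 2 1, N 2 2 + 1] := by
    ext i j
    fin_cases i <;> fin_cases j <;> simp [hN]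
  have e : ∀ i j, ∑ k, N i k * N k j = 0 := fun i j => by
    rw [← Matrix.mul_apply, h]; rfl
  simp only [Fin.sum_univ_three] at e
  obtain ⟨x, hx⟩ := classify_entries (N 0 0) (N 0 1) (N 0 2) (N 1 0) (N 1 1) (N 1 2) (N 2 0) (N 2 1) (N 2 2)
    (e 0 0) (e 0 1) (e 0 2) (e 1 0) (e 1 1) (e 1 2) (e 2 0) (e 2 1) (e 2 2) (by
      rintro ⟨a, b, c, d, e', f, g', h', i'⟩
      refine hg (Subtype.ext ?_)
      rw [Matrix.SpecialLinearGroup.coe_one, hgN, a, b, c, d, e', f, g', h', i']
      ext i j
      fin_cases i <;> fin_cases j <;> simp)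
  exact ⟨x, Subtype.ext (hx.trans hgN.symm)⟩

/-- Unitriangular matrices. -/
def upper : Subgroup SL33 where
  carrier := {g | (g : Mat) 0 0 = 1 ∧ (g : Mat) 1 1 = 1 ∧ (g : Mat) 2 2 = 1 ∧ (g : Mat) 1 0 = 0 ∧
    (g : Mat) 2 0 = 0 ∧ (g : Mat) 2 1 = 0}
  one_mem' := by simp
  mul_mem' {a b} ha hb := by
    obtain ⟨a1, a2, a3, a4, a5, a6⟩ := ha
    obtain ⟨b1, b2, b3, b4, b5, b6⟩ := hb
    simp [Matrix.SpecialLinearGroup.coe_mul, Matrix.mul_apply, Fin.sum_univ_three, a1, a2, a3, a4, a5, a6,
      b1, b2, b3, b4, b5, b6]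
  inv_mem' {a} ha := by
    obtain ⟨a1, a2, a3, a4, a5, a6⟩ := ha
    simp [Matrix.SpecialLinearGroup.coe_inv, Matrix.adjugate_fin_three, a1, a2, a3, a4, a5, a6]

/-- The element with the given entries above the diagonal. -/
def upperElt (p : ZMod 3 × ZMod 3 × ZMod 3) : SL33 :=
  ⟨!![1, p.1, p.2.1; 0, 1, p.2.2; 0, 0, 1], by simp [Matrix.det_fin_three]⟩

theorem upperElt_mem (p : ZMod 3 × ZMod 3 × ZMod 3) : upperElt p ∈ upper := by
  refine ⟨?_, ?_, ?_, ?_, ?_, ?_⟩ <;> simp [upperElt]

theorem card_upper : Nat.card upper = 27 := by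
  have e : Nat.card (ZMod 3 × ZMod 3 × ZMod 3) = 27 := by simp
  rw [← e]
  refine (Nat.card_eq_of_bijective (fun p => (⟨upperElt p, upperElt_mem p⟩ : upper)) ⟨fun p q h => ?_, fun g => ?_⟩).symm
  · have h' : (upperElt p : Mat) = upperElt q := congrArg (fun z : upper => ((z : SL33) : Mat)) h
    have h1 := congrFun (congrFun h' 0) 1
    have h2 := congrFun (congrFun h' 0) 2
    have h3 := congrFun (congrFun h' 1) 2
    simp [upperElt] at h1 h2 h3
    exact Prod.ext h1 (Prod.ext h2 h3)
  · obtain ⟨⟨g, hg⟩, a1, a2, a3, a4, a5, a6⟩ := g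
    refine ⟨(g 0 1, g 0 2, g 1 2), Subtype.ext (Subtype.ext ?_)⟩
    ext i j
    have b1 : g 0 0 = 1 := a1
    have b2 : g 1 1 = 1 := a2
    have b3 : g 2 2 = 1 := a3
    have b4 : g 1 0 = 0 := a4
    have b5 : g 2 0 = 0 := a5
    have b6 : g 2 1 = 0 := a6
    fin_cases i <;> fin_cases j <;> simp [upperElt, b1, b2, b3, b4, b5, b6]

theorem card_SL33 : Nat.card SL33 = 5616 := by
  have h := Cfsg.Agent.Linear.sub_one_mul_card_SL (F := ZMod 3) 3
  rw [ZMod.card, Fin.prod_univ_three] at h
  refine Nat.eq_of_mul_eq_mul_left (show 0 < 3 - 1 by norm_num) (h.trans ?_)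
  norm_num

/-- An element centralising the unitriangular group. -/
theorem sq_zero_of_comm_upper {g : SL33} (h1 : g * upperElt (1, 0, 0) = upperElt (1, 0, 0) * g)
    (h2 : g * upperElt (0, 0, 1) = upperElt (0, 0, 1) * g) : ((g : Mat) - 1) * ((g : Mat) - 1) = 0 := by
  have e1 := fun i j => congrFun (congrFun (congrArg Subtype.val h1) i) j
  have e2 := fun i j => congrFun (congrFun (congrArg Subtype.val h2) i) j
  simp only [Matrix.SpecialLinearGroup.coe_mul, Matrix.mul_apply, Fin.sum_univ_three] at e1 e2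
  have a := e1 0 0; have b := e1 0 1; have c := e1 0 2; have d := e1 1 1; have e := e1 2 1
  have f := e2 1 1; have g' := e2 1 2; have h := e2 2 2; have i := e2 0 2
  simp [upperElt] at a b c d e f g' h i
  have hdet : det3 (g : Mat) = 1 := by rw [← det_eq]; exact g.2
  unfold det3 at hdet
  have key : ∀ x : ZMod 3, x * x * x = 1 → x = 1 := by decide
  have h00 : (g : Mat) 1 0 = 0 ∧ (g : Mat) 2 0 = 0 ∧ (g : Mat) 2 1 = 0 ∧ (g : Mat) 1 2 = 0 ∧
      (g : Mat) 0 1 = 0 ∧ (g : Mat) 0 0 = (g : Mat) 1 1 ∧ (g : Mat) 1 1 = (g : Mat) 2 2 := by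
    grind
  obtain ⟨p1, p2, p3, p4, p5, p6, p7⟩ := h00
  rw [p1, p2, p3, p4, p5, ← p7, p6] at hdet
  have q1 : (g : Mat) 1 1 = 1 := key _ (by linear_combination hdet)
  have q0 : (g : Mat) 0 0 = 1 := p6.trans q1
  have q2 : (g : Mat) 2 2 = 1 := p7.symm.trans q1
  ext i j
  fin_cases i <;> fin_cases j <;>
    simp [Matrix.mul_apply, Fin.sum_univ_three, p1, p2, p3, p4, p5, q0, q1, q2]

/-- The conjugator. -/
def conjElt (x : Idx) : SL33 := ⟨conjMat x, by rw [det_eq]; exact (root_conj x).1⟩

/-- The characterisation of root elements. -/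
theorem root_iff (g : SL33) :
    (g ≠ 1 ∧ 27 ∣ Nat.card (Subgroup.centralizer ({g} : Set SL33))) ↔ ∃ x, root x = g := by
  constructor
  · rintro ⟨hg, hd⟩
    -- a Sylow subgroup centralising `g`
    obtain ⟨Q, hQ⟩ := Sylow.exists_subgroup_card_pow_prime (G := Subgroup.centralizer ({g} : Set SL33)) 3
      (n := 3) (by simpa using hd)
    have hQ' : Nat.card (Q.map (Subgroup.centralizer ({g} : Set SL33)).subtype) = 3 ^ 3 := by
      rw [Subgroup.card_map_of_injective (Subgroup.subtype_injective _), hQ]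
    have hfac : (Nat.card SL33).factorization 3 = 3 := by
      rw [card_SL33, show (5616 : ℕ) = 3 ^ 3 * 208 from rfl, Nat.factorization_mul (by norm_num) (by norm_num),
        Finsupp.add_apply, Nat.Prime.factorization_pow Nat.prime_three, Finsupp.single_eq_same,
        Nat.factorization_eq_zero_of_not_dvd (by norm_num)]
    let P : Sylow 3 SL33 := Sylow.ofCard (Q.map (Subgroup.centralizer ({g} : Set SL33)).subtype) (by rw [hQ', hfac])
    let U : Sylow 3 SL33 := Sylow.ofCard upper (by rw [card_upper, hfac]; rfl)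
    obtain ⟨c, hc⟩ := MulAction.exists_smul_eq SL33 P U
    have hcomm : ∀ u ∈ upper, c * g * c⁻¹ * u = u * (c * g * c⁻¹) := by
      intro u hu
      have hu' : u ∈ (U : Subgroup SL33) := by simpa [U] using hu
      rw [← hc] at hu'
      obtain ⟨q, hq, rfl⟩ := hu'
      have hq' : q ∈ Q.map (Subgroup.centralizer ({g} : Set SL33)).subtype := by simpa [P] using hq
      obtain ⟨r, -, rfl⟩ := hq'
      have hr := Subgroup.mem_centralizer_singleton_iff.1 r.2
      show c * g * c⁻¹ * (c * (r : SL33) * c⁻¹) = c * (r : SL33) * c⁻¹ * (c * g * c⁻¹)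
      calc c * g * c⁻¹ * (c * (r : SL33) * c⁻¹) = c * (g * r) * c⁻¹ := by group
        _ = c * ((r : SL33) * g) * c⁻¹ := by rw [hr]
        _ = _ := by group
    have hsq := sq_zero_of_comm_upper (hcomm _ (upperElt_mem _)) (hcomm _ (upperElt_mem _))
    refine exists_root hg ?_
    have e : ((g : Mat) - 1) = ((c⁻¹ : SL33) : Mat) * (((c * g * c⁻¹ : SL33) : Mat) - 1) * (c : Mat) := by
      rw [mul_sub, sub_mul, mul_one, ← Matrix.SpecialLinearGroup.coe_mul, ← Matrix.SpecialLinearGroup.coe_mul,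
        ← Matrix.SpecialLinearGroup.coe_mul, inv_mul_cancel, Matrix.SpecialLinearGroup.coe_one]
      congr 2
      all_goals (try group)
      all_goals rfl
    have hcc : (c : Mat) * ((c⁻¹ : SL33) : Mat) = 1 := by
      rw [← Matrix.SpecialLinearGroup.coe_mul, mul_inv_cancel, Matrix.SpecialLinearGroup.coe_one]
    rw [e]
    calc ((c⁻¹ : SL33) : Mat) * (((c * g * c⁻¹ : SL33) : Mat) - 1) * (c : Mat) *
          (((c⁻¹ : SL33) : Mat) * (((c * g * c⁻¹ : SL33) : Mat) - 1) * (c : Mat))
        = ((c⁻¹ : SL33) : Mat) * ((((c * g * c⁻¹ : SL33) : Mat) - 1) * ((c : Mat) * ((c⁻¹ : SL33) : Mat)) *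
            (((c * g * c⁻¹ : SL33) : Mat) - 1)) * (c : Mat) := by simp only [mul_assoc]
      _ = 0 := by rw [hcc, mul_one, hsq, mul_zero, zero_mul]
  · rintro ⟨x, rfl⟩
    refine ⟨root_ne_one x, ?_⟩
    have hle : upper.map (MulAut.conj (conjElt x)).toMonoidHom ≤ Subgroup.centralizer ({root x} : Set SL33) := by
      rintro _ ⟨u, hu, rfl⟩
      rw [Subgroup.mem_centralizer_singleton_iff]
      have h0 : ∀ v : SL33, v ∈ upper → v * upperElt (0, 1, 0) = upperElt (0, 1, 0) * v := by
        intro v hv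
        obtain ⟨a1, a2, a3, a4, a5, a6⟩ := hv
        apply Subtype.ext
        ext i j
        simp only [Matrix.SpecialLinearGroup.coe_mul, Matrix.mul_apply, Fin.sum_univ_three]
        fin_cases i <;> fin_cases j <;> simp [upperElt, a1, a2, a3, a4, a5, a6, add_comm]
      have ht : upperElt (0, 1, 0) = (⟨topRoot, by simp [topRoot, Matrix.det_fin_three]⟩ : SL33) := rfl
      have hx : root x = conjElt x * upperElt (0, 1, 0) * (conjElt x)⁻¹ := by
        rw [eq_mul_inv_iff_mul_eq]
        exact Subtype.ext ((root_conj x).2.1.symm)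
      show conjElt x * u * (conjElt x)⁻¹ * root x = root x * (conjElt x * u * (conjElt x)⁻¹)
      rw [hx]
      calc conjElt x * u * (conjElt x)⁻¹ * (conjElt x * upperElt (0, 1, 0) * (conjElt x)⁻¹)
          = conjElt x * (u * upperElt (0, 1, 0)) * (conjElt x)⁻¹ := by group
        _ = conjElt x * (upperElt (0, 1, 0) * u) * (conjElt x)⁻¹ := by rw [h0 u hu]
        _ = _ := by group
    have h := Subgroup.card_dvd_of_le hle
    rwa [Subgroup.card_map_of_injective (K := upper) (MulAut.conj (conjElt x)).injective, card_upper] at h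

/-- An element commuting with every root element is trivial. -/
theorem eq_one_of_comm_roots {g : SL33} (h : ∀ x, g * root x = root x * g) : g = 1 := by
  have hel : ∀ p : ZMod 3 × ZMod 3 × ZMod 3, p = (1, 0, 0) ∨ p = (0, 0, 1) →
      ∃ x, root x = upperElt p := by
    intro p hp
    refine exists_root (fun e => ?_) ?_
    · have e' := congrArg (fun z : SL33 => ((z : Mat) 0 1, (z : Mat) 1 2)) e
      rcases hp with rfl | rfl <;> simp [upperElt] at e'
    · ext i j
      rcases hp with rfl | rfl <;> fin_cases i <;> fin_cases j <;>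
        simp [upperElt, Matrix.mul_apply, Fin.sum_univ_three]
  obtain ⟨x, hx⟩ := hel _ (Or.inl rfl)
  obtain ⟨y, hy⟩ := hel _ (Or.inr rfl)
  have hsq := sq_zero_of_comm_upper (hx ▸ h x) (hy ▸ h y)
  by_contra hg
  obtain ⟨z, hz⟩ := exists_root hg hsq
  obtain ⟨w, -, hw, -, -⟩ := far_connected z.1 z.1
  have hc := (root_commute z (w, 0)).1 (by rw [hz]; exact h (w, 0))
  exact hw hc

end Cfsg.Agent.Screen.ThreeThree
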